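import Cfsg.Agent.Sig.Ward
import Cfsg.Agent.Gen.ThompsonNil
import Cfsg.Agent.BG.Plength
import Cfsg.Agent.BG.S1
import Cfsg.Agent.BG.S3Gen
import Cfsg.Agent.S4038

/-! Martineau-type analysis of a fixed-point-free coprime action of `A ≅ C_q × C_q` on a minimal non-solvable
`A`-group `K` (structure `St`): generation by centralizers of lines, invariant Sylow and Hall subgroups,
maximal invariant `{p,r}`-subgroups (`Mx`), Bender's uniqueness argument. -/

set_option autoImplicit false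

namespace Cfsg.Agent.Mart

open Subgroup Cfsg Cfsg.Agent.BG Cfsg.Agent.Sig

variable {G : Type*} [Group G] [Finite G] {K A B B' c M H P R U V X Y T : Subgroup G} {q p r : ℕ} {π : Set ℕ}

local notation "Sol" => Group.IsSolvable
local notation "Nil" => Group.IsNilpotent

theorem closed_of_fh [Fact p.Prime] (h : FH 2 M) (h0 : Op' p M = ⊥) : SylowIn p (Op p M) M := by
  have h1 : nres^[1] M ≤ Op p M := Fitting_eq_pcore h0 ▸ Fitting_max (nres_it_normal 1 M) (fh_succ.1 h)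
  have nO := pcore_normal {p} M
  have h2 : PiGrp {p}ᶜ (M /ᵍ Op p M) :=
    nil_pi_of_bot' (fh_one.1 ((fh_quo nO.norm).2 h1)) (trivg_pcore_quotient _ _)
  exact pHall_mk nO.le (pcore_pgroup _ _) (card_quotient nO.norm ▸ h2)

theorem plength_of_fh [Fact p.Prime] (h : FH 2 M) : PLength1 p M := by
  have nO := pcore_normal {p}ᶜ M
  exact (p'quo_plength1 nO (pcore_pgroup _ _)).1 (plength1_normal_Sylow
    (closed_of_fh (h.quo nO.norm) (trivg_pcore_quotient _ _)) (pcore_normal _ _).norm)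

theorem npc_of_sdprod [hp : Fact p.Prime] (hP : SylowIn p P M) (h : Sdprod (Op' p M) P M) : HasNormalPComplement p M := by
  haveI := h.normal.subgroupOf
  refine Transfer.hasNormalPComplement_of_coprime ((Op' p M).subgroupOf M) ?_ ?_
  · rw [card_subgroupOf h.lel]
    exact (p'nat_coprime hp.out).1 (pcore_pgroup _ _)
  · obtain ⟨k, hk⟩ := IsPGroup.iff_card.1 hP.pg
    exact IsPGroup.of_card (n := k) (h.relIndexl.trans hk)

theorem sdprod_of_npc [Fact p.Prime] (hP : SylowIn p P M) (h : HasNormalPComplement p M) : Sdprod (Op' p M) P M := by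
  obtain ⟨S, rfl⟩ := sylow_of_sylowIn hP
  obtain ⟨N, _, h⟩ := (Transfer.hasNormalPComplement_iff_sylow S).1 h
  exact sdprod_of_isComplement' h

/-- the minimal configuration -/
structure St (q : ℕ) (K A : Subgroup G) : Prop where
  hq : q.Prime
  el : pnElem q 2 A A
  n : A ≤ N[K]
  co : (#K).Coprime #A
  fpf : K ⊓ C[A] = ⊥
  ns : ¬ Sol K
  sol : ∀ Y < K, A ≤ N[Y] → Sol Y
  simp : ∀ U ≤ K, U ≠ ⊥ → A ≤ N[U] → K ≤ N[U] → U = K

namespace St

theorem ab (h : St q K A) : IsMulCommutative A := h.el.abelem.abelian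

theorem sA (h : St q K A) : Sol A := abelian_sol h.ab

theorem gen (h : St q K A) (hX : X ≤ K) (nX : A ≤ N[X]) (hY : ∀ B, pnElem q 1 A B → X ⊓ C[B] ≤ Y) : X ≤ Y := by
  haveI := Fact.mk h.hq
  refine coprime_abelian_gen_cent1 h.ab (h.el.not_cyclic h.hq one_lt_two) nX (coprimeSg hX h.co) fun a ha h1 => ?_
  rw [← C_zpowers]
  exact hY _ (p1Elem_zpowers h.hq ha (abelem_order_p h.el.abelem ha h1))

theorem ex (h : St q K A) (hX : X ≤ K) (nX : A ≤ N[X]) (hY : ¬ X ≤ Y) : ∃ B, pnElem q 1 A B ∧ ¬ X ⊓ C[B] ≤ Y := by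
  by_contra hc
  push Not at hc
  exact hY (h.gen hX nX hc)

theorem third (h : St q K A) (hB : pnElem q 1 A B) (hB' : pnElem q 1 A B') : ∃ D, pnElem q 1 A D ∧ D ≠ B ∧ D ≠ B' := by
  haveI := Fact.mk h.hq
  have k : ∀ {D}, pnElem q 1 A D → ∃ x ∈ A, x ∉ D := fun {D} hD => by
    by_contra hc
    push Not at hc
    have := h.el.le_of_le h.hq hD hc
    omega
  obtain ⟨x, hx, x1⟩ := k hB
  obtain ⟨y, hy, y1⟩ := k hB'
  obtain ⟨z, hz, z1, z2⟩ : ∃ z ∈ A, z ∉ B ∧ z ∉ B' := by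
    by_cases x2 : x ∈ B'
    · by_cases y2 : y ∈ B
      · exact ⟨x * y, mul_mem hx hy, fun e => x1 ((B.mul_mem_cancel_right y2).1 e),
          fun e => y1 ((B'.mul_mem_cancel_left x2).1 e)⟩
      · exact ⟨y, hy, y2, y1⟩
    · exact ⟨x, hx, x1, x2⟩
  exact ⟨_, p1Elem_zpowers h.hq hz (abelem_order_p h.el.abelem hz fun e => z1 (e ▸ one_mem _)),
    fun e => z1 (e ▸ mem_zpowers z), fun e => z2 (e ▸ mem_zpowers z)⟩

theorem nC (h : St q K A) (hB : pnElem q 1 A B) (nX : A ≤ N[X]) : A ≤ N[X ⊓ C[B]] :=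
  normsI nX (norms_cent (sub_abelian_norm h.ab hB.le))

theorem two (h : St q K A) (hB : pnElem q 1 A B) (hB' : pnElem q 1 A B') (ne : B ≠ B') (hU : U ≤ K) (cU : U ≤ C[B]) :
    U ⊓ C[B'] = ⊥ := by
  refine eq_bot_iff.2 (le_trans (le_inf (inf_le_left.trans hU) ?_) h.fpf.le)
  rw [← (p2Elem_dprodP h.hq h.el hB hB' ne).sup]
  exact le_cent_sup (inf_le_left.trans cU) inf_le_right

/-- Thompson's theorem on fixed-point-free automorphisms, applied to `P U` -/
theorem th (h : St q K A) (hB : pnElem q 1 A B) (hB' : pnElem q 1 A B') (ne : B ≠ B') (hP : P ≤ K) (hU : U ≤ K)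
    (nP : A ≤ N[P]) (nU : A ≤ N[U]) (hUP : U ≤ N[P]) (co : (#U).Coprime #P) (cU : U ≤ C[B]) (h0 : P ⊓ C[B'] = ⊥) :
    U ≤ C[P] := by
  have h1 : (P ⊔ U) ⊓ C[B'] = ⊥ := by
    rw [coprime_mulG_setI_cent hUP (hB'.le.trans nP) (hB'.le.trans nU)
      (coprimeSS (inf_le_left.trans hP) hB'.le h.co) (.inl (solvableS hB'.le h.sA)), h0, h.two hB hB' ne hU cU, bot_sup_eq]
  exact sub_nilpotent_cent2 (Gen.prime_Frobenius_kernel_nil (normsY (hB'.le.trans nP) (hB'.le.trans nU))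
    (hB'.prime h.hq) h1) le_sup_right le_sup_left co

theorem syl (h : St q K A) (p : ℕ) [Fact p.Prime] (hM : M ≤ K) (nM : A ≤ N[M]) : ∃ P, SylowIn p P M ∧ A ≤ N[P] :=
  coprime_Sylow_exists p nM (coprimeSg hM h.co) (.inl h.sA)

theorem le_syl [Fact p.Prime] (h : St q K A) (hP : SylowIn p P K) (nP : A ≤ N[P]) (hX : X ≤ K) (pX : IsPGroup p X)
    (nX : A ≤ N[X]) : X ≤ P := by
  obtain ⟨Q, hQ, nQ, hXQ⟩ := coprime_Sylow_subset h.n h.co (.inl h.sA) hX pX nX
  obtain ⟨x, hx, rfl⟩ := coprime_Sylow_trans h.n h.co (.inl h.sA) hP nP hQ nQ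
  rw [h.fpf, mem_bot] at hx
  rwa [hx, cj_one] at hXQ

theorem loc (h : St q K A) (hU : U ≤ K) (U0 : U ≠ ⊥) (nU : A ≤ N[U]) (sU : Sol U) : Sol (K ⊓ N[U] : Subgroup G) :=
  h.sol _ (inf_le_left.lt_of_ne fun e => h.ns (h.simp U hU U0 nU (inf_eq_left.1 e) ▸ sU)) (normsI h.n (norms_norm nU))

theorem fh (h : St q K A) (hM : M ≤ K) (nM : A ≤ N[M]) (sM : Sol M) : FH 2 M :=
  haveI := Fact.mk h.hq
  ward sM h.el.abelem h.el.card nM (eq_bot_iff.2 ((inf_le_inf_right _ hM).trans h.fpf.le))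

theorem hall (h : St q K A) (π : Set ℕ) (hM : M ≤ K) (nM : A ≤ N[M]) (sM : Sol M) :
    ∃ H ≤ M, A ≤ N[H] ∧ PiGrp π H ∧ ∀ X ≤ M, A ≤ N[X] → PiGrp π X → X ≤ H := by
  have co := coprimeSg hM h.co
  obtain ⟨H, hH, nH⟩ := coprime_Hall_exists π nM co sM
  refine ⟨H, hH.le, nH, hH.pi, fun X hX nX pX => ?_⟩
  obtain ⟨Q, hQ, nQ, hXQ⟩ := coprime_Hall_subset nM co sM hX pX nX
  obtain ⟨x, hx, rfl⟩ := coprime_Hall_trans nM co sM hH nH hQ nQ
  have : x = 1 := mem_bot.1 (h.fpf ▸ inf_le_inf_right _ hM hx)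
  rwa [this, cj_one] at hXQ

/-- `P_B ≠ 1` for all lines but one -/
def Many (q : ℕ) (A P : Subgroup G) : Prop := ∃ c, pnElem q 1 A c ∧ ∀ B, pnElem q 1 A B → B ≠ c → P ⊓ C[B] ≠ ⊥

theorem many_or [Fact p.Prime] (h : St q K A) (hP : SylowIn p P K) (nP : A ≤ N[P]) :
    Many q A P ∨ K ⊓ N[P] ≤ P ⊔ C[P] := by
  refine or_iff_not_imp_left.2 fun hm => ?_
  have nN := normsI h.n (norms_norm nP)
  refine le_of_coprime_Sylow_le nN (coprimeSg inf_le_left h.co) (.inl h.sA) fun s hs S hS nS => ?_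
  haveI := Fact.mk hs
  have SK := hS.le.trans inf_le_left
  by_cases e : s = p
  · subst e
    exact (h.le_syl hP nP SK hS.pg nS).trans le_sup_left
  refine le_trans (h.gen SK nS fun c hc => by_contra fun k => hm ⟨c, hc, fun B hB ne h0 => k ?_⟩) le_sup_right
  exact h.th hc hB ne.symm hP.le (inf_le_left.trans SK) nP (h.nC hc nS) (inf_le_left.trans (hS.le.trans inf_le_right))
    (pnat_coprime' (p'group_of_ne (IsPGroup.sub hS.pg inf_le_left) e) hP.pi) inf_le_right h0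

theorem not_sdprod [Fact p.Prime] (h : St q K A) (hP : SylowIn p P K) (P0 : P ≠ ⊥) : ¬ Sdprod (Op' p K) P K := fun s => by
  by_cases e : Op' p K = ⊥
  · exact h.ns (by rw [← s.sup, e, bot_sup_eq]; exact pgroup_sol hP.pg)
  · exact P0 (by rw [← s.inf, h.simp _ s.lel e (norms_pcore _ h.n) s.normal.norm, inf_eq_right.2 hP.le])

theorem many_ab [Fact p.Prime] (h : St q K A) (hP : SylowIn p P K) (nP : A ≤ N[P]) (P0 : P ≠ ⊥)
    (aP : IsMulCommutative P) : Many q A P :=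
  (h.many_or hP nP).resolve_right fun k =>
    h.not_sdprod hP P0 (Burnside_normal_complement hP (k.trans (sup_le (abelian_iff.1 aP) le_rfl)))

theorem many_odd [Fact p.Prime] (h : St q K A) (hP : SylowIn p P K) (nP : A ≤ N[P]) (P0 : P ≠ ⊥) (p2 : p ≠ 2) :
    Many q A P := by
  refine (h.many_or hP nP).resolve_right fun k => h.not_sdprod hP P0 (sdprod_of_npc hP (S4038.zj p2 hP ?_))
  have nZ := PLocal.normalizer_le_normalizer_ZJ p P
  have sL := h.loc ((PLocal.ZJ_le p P).trans hP.le) (PLocal.ZJ_ne_bot hP.pg P0) (nP.trans nZ)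
    (pgroup_sol (IsPGroup.sub hP.pg (PLocal.ZJ_le p P)))
  have l1 := plength_of_fh (p := p) (h.fh inf_le_left (normsI h.n (norms_norm (nP.trans nZ))) sL)
  have PL : P ≤ K ⊓ N[centerThompsonOf p P] := le_inf hP.le ((normG P).trans nZ)
  have LK : K ⊓ N[centerThompsonOf p P] ≤ K := inf_le_left
  generalize K ⊓ N[centerThompsonOf p P] = L at *
  have hL := pHall_subl PL LK hP
  have h1 := plength1_Sylow_Opp l1 hL
  have h2 : L ≤ Opp p L := by
    refine (Frattini_arg (pseries2_normal _ _ L) h1).ge.trans (sup_le le_rfl ?_)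
    refine le_trans (le_inf inf_le_left ((inf_le_inf_right _ LK).trans k)) ?_
    rw [group_modl (.inl (cent_norm P |>.trans' (normG P))) PL]
    exact sup_le h1.le (solvable_p_constrained sL h1)
  have h3 := plength1_sdprod l1 hL
  rw [show Opp p L = L from le_antisymm (pseries2_sub _ _ L) h2] at h3
  exact npc_of_sdprod hL h3

end St

end Cfsg.Agent.Mart
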