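import Cfsg.Agent.Mart.A
import Cfsg.Agent.S0021

/-! Fixed-point-free coprime action of `C_q × C_q` with abelian centralizers of lines: any two invariant Sylow
subgroups of the minimal counterexample permute (`perm`), hence solvability (`amb`). -/

set_option autoImplicit false

namespace Cfsg.Agent.Mart

open Subgroup Cfsg Cfsg.Agent.BG Cfsg.Agent.Sig
open scoped Pointwise

universe u

variable {G : Type u} [Group G] [Finite G] {K A B B' c M H P R U V X Y T : Subgroup G} {q p r : ℕ} {π : Set ℕ}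

local notation "Sol" => Group.IsSolvable
local notation "Nil" => Group.IsNilpotent

/-- invariant `π`-subgroups -/
structure Iv (π : Set ℕ) (K A X : Subgroup G) : Prop where
  le : X ≤ K
  n : A ≤ N[X]
  pi : PiGrp π X

/-- maximal invariant `π`-subgroups -/
structure Mx (π : Set ℕ) (K A M : Subgroup G) : Prop extends Iv π K A M where
  max : ∀ X, Iv π K A X → M ≤ X → X = M

theorem Iv.mx (h : Iv π K A X) : ∃ M, Mx π K A M ∧ X ≤ M := by
  obtain ⟨M, h1, h2⟩ := exists_maximal_ge_of_wellFoundedGT (Iv π K A) X h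
  exact ⟨M, ⟨h2.1, fun Y hY l => (h2.eq_of_le hY l).symm⟩, h1⟩

/-- a pair of invariant Sylow subgroups generating a non-`π`-group -/
structure Pr (q p r : ℕ) (π : Set ℕ) (K A P R : Subgroup G) : Prop extends St q K A where
  abc : ∀ B, pnElem q 1 A B → IsMulCommutative (K ⊓ C[B] : Subgroup G)
  ne : p ≠ r
  hπ : ∀ s, s ∈ π ↔ s = p ∨ s = r
  hP : SylowIn p P K
  hR : SylowIn r R K
  nP : A ≤ N[P]
  nR : A ≤ N[R]
  no : ∀ M, Iv π K A M → P ≤ M → R ≤ M → False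

namespace Pr

theorem symm (h : Pr q p r π K A P R) : Pr q r p π K A R P :=
  { h.toSt with
    abc := h.abc, ne := h.ne.symm, hπ := fun s => (h.hπ s).trans or_comm, hP := h.hR, hR := h.hP, nP := h.nR,
    nR := h.nP, no := fun M hM a b => h.no M hM b a }

variable [hp : Fact p.Prime] [hr : Fact r.Prime]

omit hr in
theorem ivp (h : Pr q p r π K A P R) (hX : X ≤ P) (nX : A ≤ N[X]) : Iv π K A X :=
  ⟨hX.trans h.hP.le, nX, pi_pgroup (IsPGroup.sub h.hP.pg hX) ((h.hπ p).2 (.inl rfl))⟩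

omit hp hr in
theorem solv (h : Pr q p r π K A P R) (hX : Iv π K A X) : Sol X :=
  h.sol X (hX.le.lt_of_ne fun e => h.no X hX (e ▸ h.hP.le) (e ▸ h.hR.le)) hX.n

omit hp hr in
theorem op' (h : Pr q p r π K A P R) (hX : PiGrp π X) : Op' r X = Op p X :=
  eq_in_pcore fun s hs hd => by
    have := (h.hπ s).1 (hX s hs hd)
    have := h.ne
    simp only [Set.mem_compl_iff, Set.mem_singleton_iff]
    omega

omit hp hr in
theorem nstar (h : Pr q p r π K A P R) (hU : Iv π K A U) (U0 : U ≠ ⊥) :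
    ∃ H, Mx π K A H ∧ ∀ X, Iv π K A X → X ≤ N[U] → X ≤ H := by
  obtain ⟨H, h1, h2, h3, h4⟩ := h.hall π inf_le_left (normsI h.n (norms_norm hU.n)) (h.loc hU.le U0 hU.n (h.solv hU))
  obtain ⟨M, hM, l⟩ := Iv.mx ⟨h1.trans inf_le_left, h2, h3⟩
  exact ⟨M, hM, fun X hX n => (h4 X (le_inf hX.le n) hX.n hX.pi).trans l⟩

omit hp hr in
theorem normM (h : Pr q p r π K A P R) (hM : Mx π K A M) (hU : U ≤ M) (nU : A ≤ N[U]) (U0 : U ≠ ⊥) (MU : M ≤ N[U])
    (hX : Iv π K A X) (XU : X ≤ N[U]) : X ≤ M := by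
  obtain ⟨H, h1, h2⟩ := h.nstar ⟨hU.trans hM.le, nU, pgroupS hU hM.pi⟩ U0
  exact hM.max H h1.toIv (h2 M hM.toIv MU) ▸ h2 X hX XU

omit hp hr in
theorem cop (h : Pr q p r π K A P R) (X Y : Subgroup G) : Op p X ≤ C[Op r X] :=
  normal_pi_cent (pcore_normal _ _) (pcore_normal _ _) (pcore_pgroup _ _)
    ((pcore_pgroup {r} X).mono fun s hs e => h.ne (e.symm.trans hs))

omit hp in
theorem bal (h : Pr q p r π K A P R) (hM : Mx π K A M) (hH : Iv π K A H) (Z0 : Op r M ≠ ⊥) (ZH : Z[Op r M] ≤ H) :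
    Op p M ⊓ H ≤ Op p H := by
  have nZ := (pcore_normal {r} M).center
  have aZ := norms_center (norms_pcore {r} hM.n)
  have h1 : H ⊓ C[Z[Op r M]] ≤ M := h.normM hM nZ.le aZ (center_nil_ne_bot (pgroup_nil (Op_pgroup r M)) Z0) nZ.norm
    ⟨inf_le_left.trans hH.le, normsI hH.n (norms_cent aZ), pgroupS inf_le_left hH.pi⟩ (inf_le_right.trans (cent_sub _))
  refine le_trans (le_inf inf_le_left (le_inf inf_le_right (inf_le_left.trans (centsS (center_sub _) (h.cop M M)))))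
    ((pcore_setI _ h1).trans ?_)
  exact (h.op' (pgroupS inf_le_left hH.pi)).ge.trans
    ((p'core_cent_pgroup ZH (IsPGroup.sub (Op_pgroup r M) (center_sub _)) (h.solv hH)).trans (h.op' hH.pi).le)

/-- Bender's uniqueness argument -/
theorem bender (h : Pr q p r π K A P R) (hM : Mx π K A M) (O0 : Op p M ≠ ⊥) (Q0 : Op r M ≠ ⊥) (hU : U ≤ Op p M)
    (nU : A ≤ N[U]) (U0 : U ≠ ⊥) (hX : Iv π K A X) (XU : X ≤ N[U]) : X ≤ M := by
  have iv : ∀ {Y}, Y ≤ M → A ≤ N[Y] → Iv π K A Y := fun l n => ⟨l.trans hM.le, n, pgroupS l hM.pi⟩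
  obtain ⟨H, hH, h2⟩ := h.nstar (iv (hU.trans (pcore_sub _ _)) nU) U0
  refine (h2 X hX XU).trans ?_
  have nO := pcore_normal {p} M
  have nQ := pcore_normal {r} M
  have aO := norms_pcore {p} hM.n
  have aQ := norms_pcore {r} hM.n
  have ZH : Z[Op p M] ≤ H := h2 _ (iv nO.center.le (norms_center aO)) (cents_norm (centsS hU (center_cent _)))
  have QH : Op r M ≤ H := h2 _ (iv nQ.le aQ) (cents_norm (centsS hU (h.symm.cop M M)))
  have h3 : Op r M ≤ Op r H := (le_inf le_rfl QH).trans (h.symm.bal hM hH.toIv O0 ZH)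
  have h4 : Z[Op p M] ≤ Op p H := (le_inf (center_sub _) ZH).trans (h.bal hM hH.toIv Q0 ((center_sub _).trans QH))
  have Z0 := center_nil_ne_bot (pgroup_nil (Op_pgroup p M)) O0
  have ivH : ∀ s, Iv π K A (Op s H) := fun s =>
    ⟨(pcore_sub _ _).trans hH.le, norms_pcore _ hH.n, pgroupS (pcore_sub _ _) hH.pi⟩
  have h5 : Op r H ≤ M := h.normM hM nO.center.le (norms_center aO) Z0 nO.center.norm (ivH r)
    (cents_norm (centsS h4 (h.symm.cop H H)))
  have h6 : Op p H ≤ M := h.normM hM nQ.le aQ Q0 nQ.norm (ivH p) (cents_norm (centsS h3 (h.cop H H)))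
  have h7 : Op r H ≤ Op r M := (le_inf le_rfl h5).trans (h.symm.bal hH hM.toIv (fun e => Z0 (eq_bot_iff.2 (e ▸ h4)))
    ((center_sub _).trans h6))
  have h8 : H ≤ N[Op r H] := (pcore_normal _ _).norm
  rw [le_antisymm h7 h3] at h8
  exact h.normM hM nQ.le aQ Q0 nQ.norm hH.toIv h8

omit hr in
theorem opP (h : Pr q p r π K A P R) (hM : Iv π K A M) : Op p M ≤ P :=
  h.le_syl h.hP h.nP ((pcore_sub _ _).trans hM.le) (Op_pgroup p M) (norms_pcore _ hM.n)

theorem grow (h : Pr q p r π K A P R) (hM : Mx π K A M) (O0 : Op p M ≠ ⊥) (Q0 : Op r M ≠ ⊥) (hT : T ≤ P ⊓ M)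
    (nT : A ≤ N[T]) (OT : Op p M ≤ T) (TQ : T ≤ C[Op r M]) (NT : P ⊓ N[P ⊓ M] ≤ N[T]) : P ≤ M := by
  have pT := IsPGroup.sub h.hP.pg (hT.trans inf_le_left)
  have h1 : Z[T] ≤ Op p M := by
    refine pgroup_sub_Fitting (le_trans (le_inf ((center_sub _).trans (hT.trans inf_le_right)) (cents_symm
      (Fitting_le_of_pcore fun s hs hd => ?_))) (cent_sub_Fitting (h.solv hM.toIv))) (IsPGroup.sub pT (center_sub _))
    rcases (h.hπ s).1 (hM.pi s hs (hd.trans (cardSg (Fitting_sub M)))) with rfl | rfl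
    · exact OT.trans (le_cent_center T)
    · exact cents_symm ((center_sub _).trans TQ)
  have h2 := h.bender hM O0 Q0 h1 (norms_center nT) (center_nil_ne_bot (pgroup_nil pT) fun e => O0 (eq_bot_iff.2 (e ▸ OT)))
    (h.ivp inf_le_left (normsI h.nP (norms_norm (normsI h.nP hM.n)))) (norms_center NT)
  exact inf_eq_left.1 (nilpotent_sub_norm (pgroup_nil h.hP.pg) inf_le_left (le_inf inf_le_left h2))

omit hp hr in
theorem cc (h : Pr q p r π K A P R) (hB : pnElem q 1 A B) (hX : X ≤ K) (hY : Y ≤ K) : X ⊓ C[B] ≤ C[Y ⊓ C[B]] :=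
  sub_abelian_cent2 (h.abc B hB) (inf_le_inf_right _ hX) (inf_le_inf_right _ hY)

theorem line (h : Pr q p r π K A P R) (hM : Mx π K A M) (O0 : Op p M ≠ ⊥) (Q0 : Op r M ≠ ⊥) (hB : pnElem q 1 A B)
    (h0 : Op p M ⊓ C[B] ≠ ⊥) : P ⊓ C[B] ≤ M ∧ R ⊓ C[B] ≤ M := by
  have k : ∀ {X}, Iv π K A (X ⊓ C[B]) → X ≤ K → X ⊓ C[B] ≤ M := fun hX l => h.bender hM O0 Q0 inf_le_left
    (h.nC hB (norms_pcore _ hM.n)) h0 hX (cents_norm (h.cc hB l ((pcore_sub _ _).trans hM.le)))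
  exact ⟨k (h.ivp inf_le_left (h.nC hB h.nP)) h.hP.le, k (h.symm.ivp inf_le_left (h.nC hB h.nR)) h.hR.le⟩

theorem coPQ (h : Pr q p r π K A P R) (hX : X ≤ P) (hY : Y ≤ R) : (#X).Coprime #Y :=
  pnat_coprime' (p'group_of_ne (IsPGroup.sub h.hP.pg hX) h.ne) (IsPGroup.sub h.hR.pg hY).pi

theorem case2 (h : Pr q p r π K A P R) (hM : Mx π K A M) (O0 : Op p M ≠ ⊥) (Q0 : Op r M ≠ ⊥) (hc : pnElem q 1 A c)
    (Oc : Op p M ⊓ C[c] = ⊥) (Qc : Op r M ⊓ C[c] = ⊥) (hb : ∀ B, pnElem q 1 A B → B ≠ c → P ⊓ C[B] ≤ M) : P ≤ M := by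
  have nPM := normsI h.nP hM.n
  have cA := hc.le
  have nQ := (pcore_normal {r} M).norm
  have aQ := norms_pcore {r} hM.n
  have key : ∀ {X Y}, X ≤ K → A ≤ N[X] → Y ≤ X → X ≤ N[Y] → (∀ B, pnElem q 1 A B → B ≠ c → X ⊓ C[B] ≤ Y) →
      ⁅X, c⁆ = ⁅Y, c⁆ := fun {X Y} hX nX l n k => by
    have : X = Y ⊔ (X ⊓ C[c]) := le_antisymm (h.gen hX nX fun B hB => by
      by_cases e : B = c
      · exact e ▸ le_sup_right
      · exact (k B hB e).trans le_sup_left) (sup_le l inf_le_left)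
    rw [this, comm_sup_cent inf_le_right (inf_le_left.trans n)]
  refine h.grow hM O0 Q0 (T := ⁅P ⊓ M, c⁆) (commg_subl (cA.trans nPM)) (normsR nPM (sub_abelian_norm h.ab cA)) ?_ ?_ ?_
  · have := coprime_cent_prod' (cA.trans (norms_pcore {p} hM.n)) (coprimeSS ((pcore_sub _ _).trans hM.le) cA h.co)
      (.inl (solvableS cA h.sA))
    rw [Oc, sup_bot_eq] at this
    exact this.ge.trans (commSg _ (le_inf (h.opP hM.toIv) (pcore_sub _ _)))
  · have n1 := normsI nPM (norms_cent aQ)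
    rw [key (Y := P ⊓ M ⊓ C[Op r M]) (inf_le_right.trans hM.le) nPM inf_le_left
      (subcent_normal (inf_le_right.trans nQ)).norm fun B hB ne => le_inf inf_le_left ?_]
    · exact (commg_subl (cA.trans n1)).trans inf_le_right
    · exact h.th hB hc ne ((pcore_sub _ _).trans hM.le) (inf_le_left.trans (inf_le_right.trans hM.le)) aQ (h.nC hB nPM)
        (inf_le_left.trans (inf_le_right.trans nQ)) (h.coPQ (inf_le_left.trans inf_le_left) (h.symm.opP hM.toIv))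
        inf_le_right Qc
  · rw [← key (X := P ⊓ N[P ⊓ M]) (inf_le_left.trans h.hP.le) (normsI h.nP (norms_norm nPM))
      (le_inf inf_le_left (normG _)) inf_le_right fun B hB ne =>
        le_inf (inf_le_left.trans inf_le_left) ((inf_le_inf_right _ inf_le_left).trans (hb B hB ne))]
    exact commg_norml _ _

theorem half (h : Pr q p r π K A P R) (hM : Mx π K A M) (O0 : Op p M ≠ ⊥) (Q0 : Op r M ≠ ⊥) :
    R ⊓ M ≤ C[Op p M] := by
  by_contra hn
  have nRM := normsI h.nR hM.n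
  obtain ⟨c, hc, hn⟩ := h.ex (inf_le_right.trans hM.le) nRM hn
  have h1 : ∀ B, pnElem q 1 A B → B ≠ c → P ⊓ C[B] ≤ M ∧ R ⊓ C[B] ≤ M := fun B hB ne => h.line hM O0 Q0 hB fun e =>
    hn (h.th hc hB ne.symm ((pcore_sub _ _).trans hM.le) (inf_le_left.trans (inf_le_right.trans hM.le))
      (norms_pcore _ hM.n) (h.nC hc nRM) (inf_le_left.trans (inf_le_right.trans (pcore_normal _ _).norm))
      (h.symm.coPQ (inf_le_left.trans inf_le_left) (h.opP hM.toIv)) inf_le_right e)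
  have h2 : ¬ (P ⊓ C[c] ≤ M ∧ R ⊓ C[c] ≤ M) := fun k => h.no M hM.toIv
    (h.gen h.hP.le h.nP fun B hB => (eq_or_ne B c).elim (fun e => e ▸ k.1) fun e => (h1 B hB e).1)
    (h.gen h.hR.le h.nR fun B hB => (eq_or_ne B c).elim (fun e => e ▸ k.2) fun e => (h1 B hB e).2)
  have Oc : Op p M ⊓ C[c] = ⊥ := by_contra fun e => h2 (h.line hM O0 Q0 hc e)
  have Qc : Op r M ⊓ C[c] = ⊥ := by_contra fun e => h2 (h.symm.line hM Q0 O0 hc e).symm
  exact h.no M hM.toIv (h.case2 hM O0 Q0 hc Oc Qc fun B hB ne => (h1 B hB ne).1)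
    (h.symm.case2 hM Q0 O0 hc Qc Oc fun B hB ne => (h1 B hB ne).2)

theorem dich (h : Pr q p r π K A P R) (hM : Mx π K A M) : Op p M = ⊥ ∨ Op r M = ⊥ := by
  by_contra hn
  push Not at hn
  obtain ⟨O0, Q0⟩ := hn
  exact h.no M hM.toIv
    (h.grow hM O0 Q0 le_rfl (normsI h.nP hM.n) (le_inf (h.opP hM.toIv) (pcore_sub _ _)) (h.symm.half hM Q0 O0) inf_le_right)
    (h.symm.grow hM Q0 O0 le_rfl (normsI h.nR hM.n) (le_inf (h.symm.opP hM.toIv) (pcore_sub _ _)) (h.half hM O0 Q0)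
      inf_le_right)

omit hp hr in
theorem P0 (h : Pr q p r π K A P R) [Fact r.Prime] : P ≠ ⊥ := fun e =>
  h.no R (h.symm.ivp le_rfl h.nR) (e ▸ bot_le) le_rfl

theorem closed (h : Pr q p r π K A P R) (hM : Mx π K A M) (Q0 : Op r M = ⊥) : Op p M = P := by
  have h0 : Op' p M = ⊥ := (h.symm.op' hM.pi).trans Q0
  have h1 := closed_of_fh (h.fh hM.le hM.n (h.solv hM.toIv)) h0
  have nO := pcore_normal {p} M
  have aO := norms_pcore {p} hM.n
  by_cases O0 : Op p M = ⊥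
  · have h2 : M = ⊥ := (pcore_pgroup_id (p'group_of_Hall_bot (O0 ▸ h1))).symm.trans h0
    exact absurd ((hM.max P (h.ivp le_rfl h.nP) (h2 ▸ bot_le)).trans h2) h.P0
  have iv := h.ivp (X := P ⊓ N[Op p M]) inf_le_left (normsI h.nP (norms_norm aO))
  exact nilpotent_sub_norm (pgroup_nil h.hP.pg) (h.opP hM.toIv) (sub_normal_Hall h1 nO
    (h.normM hM nO.le aO O0 nO.norm iv inf_le_right) (IsPGroup.sub h.hP.pg inf_le_left).pi)

theorem nor (h : Pr q p r π K A P R) (hM : Mx π K A M) : M ≤ N[P] ∨ M ≤ N[R] :=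
  (h.dich hM).symm.imp (fun e => h.closed hM e ▸ (pcore_normal _ _).norm)
    fun e => h.symm.closed hM e ▸ (pcore_normal _ _).norm

theorem ovr (h : Pr q p r π K A P R) (hM : Mx π K A M) (PM : P ≤ M) : M ≤ N[P] ∧ M ⊓ C[P] ≤ P := by
  have Q0 : Op r M = ⊥ := (h.dich hM).resolve_left fun e =>
    h.no M hM.toIv PM (h.symm.closed hM e ▸ pcore_sub _ _)
  have e := h.closed hM Q0
  exact ⟨e ▸ (pcore_normal _ _).norm, e ▸ cent_sub_pcore (h.solv hM.toIv) ((h.symm.op' hM.pi).trans Q0)⟩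

theorem faith (h : Pr q p r π K A P R) (hV : V ≤ R) (nV : A ≤ N[V]) (cV : V ≤ C[P]) : V = ⊥ := by
  have i1 := h.ivp le_rfl h.nP
  have i2 := h.symm.ivp hV nV
  obtain ⟨M, hM, l⟩ := Iv.mx (X := P ⊔ V) ⟨sup_le i1.le i2.le, normsY h.nP nV, pgroupY (.inr (cents_norm cV)) i1.pi i2.pi⟩
  refine eq_bot_iff.2 (le_trans (le_inf ?_ hV) (coprime_TI (h.coPQ le_rfl le_rfl)).le)
  exact (le_inf (le_sup_right.trans l) cV).trans (h.ovr hM (le_sup_left.trans l)).2

theorem key (h : Pr q p r π K A P R) (hB : pnElem q 1 A B) (h0 : P ⊓ C[B] ≠ ⊥) : R ⊓ C[B] ≤ N[P] := by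
  have nB := h.nC hB h.nP
  obtain ⟨H, hH, h1⟩ := h.nstar (h.ivp inf_le_left nB) h0
  rcases h.nor hH with h2 | h2
  · exact (h1 _ (h.symm.ivp inf_le_left (h.nC hB h.nR)) (cents_norm (h.cc hB h.hR.le h.hP.le))).trans h2
  have h3 : P ⊓ N[P ⊓ C[B]] ≤ N[R] := (h1 _ (h.ivp inf_le_left (normsI h.nP (norms_norm nB))) inf_le_right).trans h2
  have nZ := norms_center h.nP
  obtain ⟨a, ha, h4⟩ := h.ex (Y := ⊥) ((center_sub _).trans h.hP.le) nZ
    fun e => center_nil_ne_bot (pgroup_nil h.hP.pg) h.P0 (eq_bot_iff.2 e)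
  have nU := h.nC ha nZ
  have PU : P ≤ C[Z[P] ⊓ C[a]] := centsS inf_le_left (le_cent_center P)
  obtain ⟨H', hH', h5⟩ := h.nstar (h.ivp (inf_le_left.trans (center_sub _)) nU) fun e => h4 e.le
  have nV := normsI h.nR (norms_cent nU)
  have h6 : R ⊓ C[Z[P] ⊓ C[a]] ≤ N[P] := (h5 _ (h.symm.ivp inf_le_left nV) (inf_le_right.trans (cent_sub _))).trans
    (h.ovr hH' (h5 _ (h.ivp le_rfl h.nP) (cents_norm PU))).1
  have h7 : P ⊓ N[P ⊓ C[B]] ≤ C[R ⊓ C[Z[P] ⊓ C[a]]] := commG1.1 (eq_bot_iff.2 (le_trans (le_inf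
    ((commSg _ inf_le_left).trans (commg_subl h6))
    ((commg_subr (normsI h3 (norms_cent (inf_le_left.trans (cents_norm PU))))).trans inf_le_left))
    (coprime_TI (h.coPQ le_rfl le_rfl)).le))
  have h8 : R ⊓ C[Z[P] ⊓ C[a]] = ⊥ := h.faith inf_le_left nV (PxQ_lemma (P := P ⊓ C[B])
    (by rw [sup_eq_left.2 inf_le_left]; exact pgroup_nil h.hP.pg) (h.coPQ le_rfl inf_le_left)
    ((le_inf inf_le_left (normG _)).trans h7) (normsG inf_le_left) h6 ((inf_le_inf_left _ (cent_sub _)).trans h7))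
  have h9 : R ⊓ C[a] = ⊥ := eq_bot_iff.2 (le_trans (le_inf inf_le_left
    (h.cc ha h.hR.le ((center_sub _).trans h.hP.le))) h8.le)
  by_cases e : B = a
  · rw [e, h9]; exact bot_le
  exact absurd (h.symm.faith inf_le_left nB (h.th hB ha e h.hR.le (inf_le_left.trans h.hP.le) h.nR nB
    ((le_inf inf_le_left (normG _)).trans h3) (h.coPQ inf_le_left le_rfl) inf_le_right h9)) h0

theorem common (h : Pr q p r π K A P R) (hB : pnElem q 1 A B) (h0 : P ⊓ C[B] ≠ ⊥) : R ⊓ C[B] = ⊥ := by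
  by_contra h1
  have h2 : R ≤ N[P] := h.gen h.hR.le h.nR fun D hD => h.key hD fun e => by
    by_cases e' : B = D
    · exact h0 (e' ▸ e)
    exact h1 (h.faith inf_le_left (h.nC hB h.nR) (h.th hB hD e' h.hP.le (inf_le_left.trans h.hR.le) h.nP (h.nC hB h.nR)
      (h.key hB h0) (h.symm.coPQ inf_le_left le_rfl) inf_le_right e))
  have i1 := h.ivp le_rfl h.nP
  have i2 := h.symm.ivp le_rfl h.nR
  exact h.no (P ⊔ R) ⟨sup_le i1.le i2.le, normsY h.nP h.nR, pgroupY (.inr h2) i1.pi i2.pi⟩ le_sup_left le_sup_right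

theorem false_odd (h : Pr q p r π K A P R) (p2 : p ≠ 2) : False := by
  obtain ⟨c, hc, h1⟩ := h.many_odd h.hP h.nP h.P0 p2
  have h2 : R ≤ K ⊓ C[c] := le_inf h.hR.le (h.gen h.hR.le h.nR fun B hB =>
    (eq_or_ne B c).elim (fun e => e ▸ inf_le_right) fun e => (h.common hB (h1 B hB e)).le.trans bot_le)
  obtain ⟨d, hd, h3⟩ := h.many_ab h.hR h.nR h.symm.P0 (abelianS h2 (h.abc c hc))
  obtain ⟨B, hB, b1, b2⟩ := h.third hc hd
  exact h3 B hB b2 (h.common hB (h1 B hB b1))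

theorem false (h : Pr q p r π K A P R) : False := by
  by_cases e : p = 2
  · exact h.symm.false_odd fun e' => h.ne (e.trans e'.symm)
  · exact h.false_odd e

end Pr

theorem St.false (h : St q K A) (abc : ∀ B, pnElem q 1 A B → IsMulCommutative (K ⊓ C[B] : Subgroup G)) : False := by
  have h1 : ∀ p : Nat.Primes, ∃ S : Sylow (p : ℕ) K, A ≤ N[(S : Subgroup K).map K.subtype] := fun p => by
    haveI := Fact.mk p.2
    obtain ⟨P, hP, nP⟩ := h.syl p le_rfl h.n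
    obtain ⟨S, rfl⟩ := sylow_of_sylowIn hP
    exact ⟨S, nP⟩
  choose S hS using h1
  have key : ∀ p r : Nat.Primes, p ≠ r → (S p : Set K) * (S r : Set K) ⊆ (S r : Set K) * (S p : Set K) := by
    intro p r ne
    haveI := Fact.mk p.2
    haveI := Fact.mk r.2
    have hP := sylowIn_of_sylow (S p)
    have hR := sylowIn_of_sylow (S r)
    obtain ⟨M, hM, l1, l2⟩ : ∃ M, Iv {s | s = p ∨ s = r} K A M ∧ (S p : Subgroup K).map K.subtype ≤ M ∧
        (S r : Subgroup K).map K.subtype ≤ M := by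
      by_contra hc
      push Not at hc
      exact Pr.false (p := p) (r := r) ⟨h, abc, fun e => ne (Subtype.ext e), fun _ => Iff.rfl, hP, hR, hS p, hS r, hc⟩
    have h2 := compl_of_pHall (pHall_subl l2 hM.le hR) (pHall_congr (ρ := {(r : ℕ)}ᶜ) (fun s hs hd => by
      have h3 : s = p ∨ s = r := hM.pi s hs hd
      have h4 : (p : ℕ) ≠ r := fun e => ne (Subtype.ext e)
      simp only [Set.mem_compl_iff, Set.mem_singleton_iff]
      omega) (pHall_subl l1 hM.le hP))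
    rintro _ ⟨x, hx, y, hy, rfl⟩
    obtain ⟨_, ⟨a, ha, rfl⟩, _, ⟨b, hb, rfl⟩, e⟩ := h2.2.2.2 ((x : G) * y) (mul_mem (l1 ⟨x, hx, rfl⟩) (l2 ⟨y, hy, rfl⟩))
    exact ⟨a, ha, b, hb, Subtype.ext e.symm⟩
  refine h.ns (S0021.result S fun p r => ?_)
  by_cases e : p = r
  · rw [e]
  · exact (key p r e).antisymm (key r p (Ne.symm e))

theorem amb (hq : q.Prime) (el : pnElem q 2 A A) (n : A ≤ N[K]) (co : (#K).Coprime #A)
    (abc : ∀ a ∈ A, a ≠ 1 → IsMulCommutative (K ⊓ C1[a] : Subgroup G)) : Sol K := by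
  induction hk : #K using Nat.strong_induction_on generalizing G with
  | _ k ih =>
  subst hk
  by_contra ns
  haveI := Fact.mk hq
  have sA := abelian_sol el.abelem.abelian
  have ih1 : ∀ Y < K, A ≤ N[Y] → Sol Y := fun Y lt nY => ih _ (proper_card lt) el nY (coprimeSg lt.le co)
    (fun a ha a1 => abelianS (inf_le_inf_right _ lt.le) (abc a ha a1)) rfl
  have simp : ∀ U ≤ K, U ≠ ⊥ → A ≤ N[U] → K ≤ N[U] → U = K := fun U hU U0 nU KU => by_contra fun ne => by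
    have cU := coprimeSg hU co
    refine ns (series_sol ⟨hU, KU⟩ (ih1 U (hU.lt_of_ne ne) nU) (ih _ (ltn_quotient U0 hU) (A := A /ᵍ U)
      ⟨le_rfl, quotient_abelem U el.abelem, (card_quotient_TI nU (coprime_TI cU)).trans el.card⟩ (quotient_norms U n)
      (coprime_morph _ co) (fun z hz z1 => ?_) rfl))
    obtain ⟨a, ha, ha', rfl⟩ := mem_quotient_iff.1 hz
    have hz := zpowers_le.2 ha
    rw [← C_zpowers, ← quotient_zpowers ha', ← coprime_quotient_cent hU (hz.trans nU) (coprimegS hz cU)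
      (.inl (solvableS hz sA)), C_zpowers]
    exact quotient_abelian U (abc a ha fun e => z1 (e ▸ coset_one U))
  have nc := el.not_cyclic hq one_lt_two
  have h1 : K ≤ C[K ⊓ C[A]] := coprime_abelian_gen_cent1 el.abelem.abelian nc n co fun a ha a1 =>
    sub_abelian_cent (abc a ha a1) (inf_le_inf_left _ (cent_le_cent1 ha))
  refine St.false ⟨hq, el, n, co, by_contra fun e => ns ?_, ns, ih1, simp⟩ fun B hB => ?_
  · have h2 := simp _ inf_le_left e (normsI n (norms_cent (normG A))) (cents_norm h1)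
    rw [h2] at h1
    exact abelian_sol (abelian_of_cent h1)
  · obtain ⟨a, ha, a1⟩ := trivgPn.1 (nt_pnElem hq hB one_pos)
    exact abelianS (inf_le_inf_left _ (cent_le_cent1 ha)) (abc a (hB.le ha) a1)

end Cfsg.Agent.Mart
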